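import Cfsg.Agent.H830.B57.Str
import Cfsg.Agent.Lib.GenFitting
import Cfsg.Agent.Lib.Cores
import Cfsg.Agent.Lib.NormalAbelian
import Cfsg.Agent.SignalizersComponents.Components

/-!
# S5717, D3: existence of the structure `Str` (helper680, task 4665)
-/

set_option autoImplicit false

namespace Cfsg.Agent.H680.B57.ExStr

open Subgroup Cfsg Cfsg.Agent.SignalizersComponents.Components Cfsg.Agent.Lib.Cores

universe u

section abs

variable {G : Type u} [Group G]

/-- the components of `G` in `C` -/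
abbrev Cmp (C : Subgroup G) : Type u := {K : Subgroup G // IsComponent K ∧ K ≤ C}

theorem exists_max [Finite G] : ∃ A : Subgroup G, A.Normal ∧ (∀ x ∈ A, ∀ y ∈ A, x * y = y * x) ∧
    ∀ B : Subgroup G, B.Normal → (∀ x ∈ B, ∀ y ∈ B, x * y = y * x) → A ≤ B → B ≤ A := by
  obtain ⟨A, hA⟩ := (Set.toFinite {B : Subgroup G | B.Normal ∧ ∀ x ∈ B, ∀ y ∈ B, x * y = y * x}).exists_maximal
    ⟨⊥, inferInstance, fun x hx y hy => by rw [Subgroup.mem_bot.1 hx, Subgroup.mem_bot.1 hy]⟩
  exact ⟨A, hA.prop.1, hA.prop.2, fun B h1 h2 h3 => hA.2 (⟨h1, h2⟩ : B.Normal ∧ _) h3⟩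

/-- abelian normal subgroups centralising `A` are in `A` -/
theorem le_of_cent {A : Subgroup G} (hAn : A.Normal) (hA : ∀ x ∈ A, ∀ y ∈ A, x * y = y * x)
    (hmax : ∀ B : Subgroup G, B.Normal → (∀ x ∈ B, ∀ y ∈ B, x * y = y * x) → A ≤ B → B ≤ A)
    {B : Subgroup G} (hBn : B.Normal) (hB : ∀ x ∈ B, ∀ y ∈ B, x * y = y * x)
    (hc : B ≤ centralizer (A : Set G)) : B ≤ A := by
  refine le_sup_right.trans (hmax (A ⊔ B) (Subgroup.sup_normal A B) ?_ le_sup_left)
  intro x hx y hy
  obtain ⟨a, ha, b, hb, rfl⟩ := Subgroup.mem_sup_of_normal_right.1 hx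
  obtain ⟨a', ha', b', hb', rfl⟩ := Subgroup.mem_sup_of_normal_right.1 hy
  have h1 : b * a' = a' * b := (mem_centralizer_iff.1 (hc hb) a' ha').symm
  have h2 : b' * a = a * b' := (mem_centralizer_iff.1 (hc hb') a ha).symm
  calc a * b * (a' * b') = a * (b * a') * b' := by group
    _ = (a * a') * (b * b') := by rw [h1]; group
    _ = (a' * a) * (b' * b) := by rw [hA a ha a' ha', hB b hb b' hb']
    _ = a' * (a * b') * b := by group
    _ = a' * b' * (a * b) := by rw [← h2]; group

/-- preimage of the centre of `F / A` -/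
def RR (A F : Subgroup G) [A.Normal] : Subgroup G :=
  F ⊓ (centralizer ((F.map (QuotientGroup.mk' A) : Subgroup (G ⧸ A)) : Set (G ⧸ A))).comap (QuotientGroup.mk' A)

theorem mem_RR {A F : Subgroup G} [A.Normal] {x : G} :
    x ∈ RR A F ↔ x ∈ F ∧ ∀ y ∈ F, x * y * x⁻¹ * y⁻¹ ∈ A := by
  rw [RR, mem_inf, mem_comap, mem_centralizer_iff]
  refine and_congr_right fun _ => ⟨fun h y hy => ?_, fun h z hz => ?_⟩
  · have h1 := h (QuotientGroup.mk' A y) (mem_map_of_mem _ hy)
    rw [← QuotientGroup.eq_one_iff]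
    rw [QuotientGroup.mk_mul, QuotientGroup.mk_mul, QuotientGroup.mk_mul, QuotientGroup.mk_inv, QuotientGroup.mk_inv]
    rw [QuotientGroup.mk'_apply, QuotientGroup.mk'_apply] at h1
    rw [← h1]
    group
  · obtain ⟨y, hy, rfl⟩ := hz
    have h1 := h y hy
    rw [← QuotientGroup.eq_one_iff] at h1
    rw [QuotientGroup.mk_mul, QuotientGroup.mk_mul, QuotientGroup.mk_mul, QuotientGroup.mk_inv,
      QuotientGroup.mk_inv] at h1
    rw [QuotientGroup.mk'_apply, QuotientGroup.mk'_apply]
    have h2 := mul_inv_eq_one.1 h1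
    have h3 := mul_inv_eq_iff_eq_mul.1 h2
    exact h3.symm

theorem RR_normal {A F : Subgroup G} [A.Normal] [F.Normal] : (RR A F).Normal := by
  have h1 : (F.map (QuotientGroup.mk' A)).Normal := Subgroup.Normal.map inferInstance _ (QuotientGroup.mk'_surjective A)
  unfold RR
  infer_instance

theorem conj_mem_cmp {C : Subgroup G} [C.Normal] {K : Subgroup G} (hK : IsComponent K) (hKC : K ≤ C) (g : G) :
    IsComponent (K.map (MulAut.conj g).toMonoidHom) ∧ K.map (MulAut.conj g).toMonoidHom ≤ C := by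
  refine ⟨isComponent_conj g hK, ?_⟩
  rintro _ ⟨x, hx, rfl⟩
  exact (inferInstance : C.Normal).conj_mem x (hKC hx) g

/-- the join of the components in `C` -/
def LL (C : Subgroup G) : Subgroup G := ⨆ K : Cmp C, K.1

theorem le_LL {C : Subgroup G} (K : Cmp C) : K.1 ≤ LL C := le_iSup (fun K : Cmp C => K.1) K

theorem LL_normal {C : Subgroup G} [C.Normal] : (LL C).Normal := by
  constructor
  intro x hx g
  have h1 : (LL C).map (MulAut.conj g).toMonoidHom ≤ LL C := by
    rw [LL, Subgroup.map_iSup]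
    refine iSup_le fun K => ?_
    obtain ⟨h2, h3⟩ := conj_mem_cmp K.2.1 K.2.2 g
    exact le_LL ⟨_, h2, h3⟩
  exact h1 (mem_map_of_mem _ hx)

theorem cent [Finite G] {A : Subgroup G} (hAn : A.Normal) (hA : ∀ x ∈ A, ∀ y ∈ A, x * y = y * x)
    (hmax : ∀ B : Subgroup G, B.Normal → (∀ x ∈ B, ∀ y ∈ B, x * y = y * x) → A ≤ B → B ≤ A) {C F : Subgroup G}
    (hC : C = centralizer (A : Set G)) (hF : F = C ⊓ fittingSubgroup G) {x : G} (hx : x ∈ C)
    (hxR : ∀ r ∈ RR A F, x * r = r * x) (hxE : ∀ K : Cmp C, ∀ e ∈ K.1, x * e = e * x) : x ∈ A := by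
  have hCn : C.Normal := by rw [hC]; infer_instance
  have hFn : F.Normal := by rw [hF]; infer_instance
  have hRn : (RR A F).Normal := RR_normal
  have hLn : (LL C).Normal := LL_normal
  have hAC : A ≤ C := by
    rw [hC]
    intro a ha
    rw [mem_centralizer_iff]
    intro b hb
    exact hA b hb a ha
  have hcommA : ∀ c ∈ C, ∀ a ∈ A, c * a = a * c := by
    intro c hc a ha
    rw [hC] at hc
    exact (mem_centralizer_iff.1 hc a ha).symm
  have hFnil : Group.IsNilpotent F := by
    have h1 : F ≤ fittingSubgroup G := by rw [hF]; exact inf_le_right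
    exact (le_fittingSubgroup_iff hFn).1 h1
  set D : Subgroup G := C ⊓ centralizer (RR A F : Set G) ⊓ centralizer (LL C : Set G) with hD
  have hDn : D.Normal := by rw [hD]; infer_instance
  have hDC : D ≤ C := inf_le_left.trans inf_le_left
  have hDR : D ≤ centralizer (RR A F : Set G) := inf_le_left.trans inf_le_right
  have hDL : D ≤ centralizer (LL C : Set G) := inf_le_right
  have hRC : RR A F ≤ C := fun y hy => by
    have h1 := (mem_RR.1 hy).1
    rw [hF] at h1
    exact h1.1
  -- `x ∈ D`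
  have hxD : x ∈ D := by
    refine ⟨⟨hx, ?_⟩, ?_⟩
    · exact mem_centralizer_iff.2 fun r hr => (hxR r hr).symm
    · have h1 : LL C ≤ centralizer ({x} : Set G) := by
        refine iSup_le fun K => ?_
        intro e he
        rw [mem_centralizer_singleton_iff]
        exact (hxE K e he).symm
      refine mem_centralizer_iff.2 fun e he => ?_
      exact mem_centralizer_singleton_iff.1 (h1 he)
  -- `D ∩ R ≤ A`
  have hDRA : D ⊓ RR A F ≤ A := by
    have h1 : RR A F ⊓ centralizer (RR A F : Set G) ≤ A := by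
      refine le_of_cent hAn hA hmax inferInstance ?_ ?_
      · intro a ha b hb
        exact mem_centralizer_iff.1 hb.2 a ha.1
      · exact inf_le_left.trans (hRC.trans hC.le)
    exact (le_inf inf_le_right (inf_le_left.trans hDR)).trans h1
  -- `D ∩ F ≤ A`
  have hDFA : D ⊓ F ≤ A := by
    by_contra hn
    have hAF : A ≤ F := by
      rw [hF]
      refine le_inf hAC ?_
      refine le_fittingSubgroup hAn ?_
      let _ : CommGroup A := { (inferInstance : Group A) with mul_comm := fun a b => Subtype.ext (hA a a.2 b b.2) }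
      exact CommGroup.isNilpotent
    have : Group.IsNilpotent F := hFnil
    obtain ⟨z, hz, hzA, hzc⟩ := Cfsg.Agent.Lib.NormalAbelian.exists_mem_not_mem_central_mod (G := F)
      (A := A.subgroupOf F) (C := (D ⊓ F).subgroupOf F) (inferInstance) (inferInstance) (fun h => hn (by
        intro y hy
        exact h (x := ⟨y, hy.2⟩) (mem_subgroupOf.2 hy)))
    apply hzA
    rw [mem_subgroupOf]
    apply hDRA
    refine ⟨(mem_subgroupOf.1 hz).1, mem_RR.2 ⟨z.2, fun y hy => ?_⟩⟩
    exact mem_subgroupOf.1 (hzc ⟨y, hy⟩)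
  -- the layer of `D`
  have hlay : layer D = ⊥ := by
    rw [eq_bot_iff, layer_le_iff]
    intro K hK
    exfalso
    have h1 : IsComponent (K.map D.subtype) := isComponent_map_subtype hDn.isSubnormal hK
    have h2 : K.map D.subtype ≤ D := map_subtype_le K
    have h3 : K.map D.subtype ≤ LL C := le_LL ⟨_, h1, h2.trans hDC⟩
    apply quasisimple_not_isMulCommutative hK.2
    refine ⟨⟨fun a b => ?_⟩⟩
    apply Subtype.ext
    apply Subtype.ext
    have h4 : ((a : D) : G) ∈ K.map D.subtype := mem_map_of_mem _ a.2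
    have h5 : ((b : D) : G) ∈ K.map D.subtype := mem_map_of_mem _ b.2
    exact mem_centralizer_iff.1 (hDL (h2 h5)) _ (h3 h4)
  have hfit : (fittingSubgroup D).map D.subtype ≤ A := by
    rw [map_subtype_fittingSubgroup hDn]
    refine le_trans (le_inf inf_le_left ?_) hDFA
    rw [hF]
    exact inf_le_inf_right _ hDC
  have hstar : generalizedFittingSubgroup D = fittingSubgroup D := by
    rw [Cfsg.Agent.Lib.GenFitting.genFitting_def, hlay, bot_sup_eq]
  have htop : (⊤ : Subgroup D) ≤ generalizedFittingSubgroup D := by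
    refine le_trans ?_ (Cfsg.Agent.Lib.GenFitting.centralizer_genFitting_le (G := D))
    intro d _
    rw [mem_centralizer_iff]
    intro f hf
    have h1 : (f : G) ∈ A := by
      apply hfit
      rw [hstar] at hf
      exact mem_map_of_mem D.subtype hf
    apply Subtype.ext
    exact (hcommA d (hDC d.2) f h1).symm
  apply hfit
  rw [hstar] at htop
  exact ⟨⟨x, hxD⟩, htop (mem_top _), rfl⟩

end abs

theorem enab {K : Type u} [Group K] (hq : IsQuasisimple K) : ∃ x y : K ⧸ center K, x * y ≠ y * x := by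
  by_contra hn
  push Not at hn
  apply quasisimple_center_ne_top hq
  rw [eq_top_iff, ← hq.1.commutator_eq_top, commutator_def, commutator_le]
  intro x _ y _
  rw [← QuotientGroup.eq_one_iff]
  have h1 := hn (x : K ⧸ center K) (y : K ⧸ center K)
  rw [← QuotientGroup.mk_mul, ← QuotientGroup.mk_mul] at h1
  rw [commutatorElement_def, mul_assoc, ← mul_inv_rev, QuotientGroup.mk_mul, QuotientGroup.mk_inv, h1, mul_inv_cancel]

theorem norm_map {H : Type u} [Group H] {X : Subgroup H} {R : Subgroup X} (hR : R.Normal) :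
    ∀ x ∈ X, ∀ y ∈ R.map X.subtype, x * y * x⁻¹ ∈ R.map X.subtype := by
  rintro x hx _ ⟨y, hy, rfl⟩
  exact ⟨⟨x, hx⟩ * y * ⟨x, hx⟩⁻¹, hR.conj_mem y hy _, rfl⟩

theorem comm_map {H : Type u} [Group H] {X : Subgroup H} {R A : Subgroup X}
    (h : ∀ x ∈ R, ∀ y ∈ R, x * y * x⁻¹ * y⁻¹ ∈ A) :
    ∀ x ∈ R.map X.subtype, ∀ y ∈ R.map X.subtype, x * y * x⁻¹ * y⁻¹ ∈ A.map X.subtype := by
  rintro _ ⟨x, hx, rfl⟩ _ ⟨y, hy, rfl⟩
  exact ⟨x * y * x⁻¹ * y⁻¹, h x hx y hy, rfl⟩

theorem commute_map {H : Type u} [Group H] {X : Subgroup H} {R A : Subgroup X}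
    (h : ∀ x ∈ R, ∀ y ∈ A, x * y = y * x) :
    ∀ x ∈ R.map X.subtype, ∀ y ∈ A.map X.subtype, x * y = y * x := by
  rintro _ ⟨x, hx, rfl⟩ _ ⟨y, hy, rfl⟩
  exact congrArg Subtype.val (h x hx y hy)

theorem cent_map {H : Type u} [Group H] {X : Subgroup H} {R A : Subgroup X}
    (h : R ⊓ centralizer (R : Set X) ≤ A) :
    ∀ x ∈ R.map X.subtype, (∀ y ∈ R.map X.subtype, x * y = y * x) → x ∈ A.map X.subtype := by
  rintro _ ⟨x, hx, rfl⟩ h'
  refine ⟨x, h ⟨hx, mem_centralizer_iff.2 fun y hy => ?_⟩, rfl⟩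
  exact Subtype.ext (h' y ⟨y, hy, rfl⟩).symm

theorem comm_of_map {H : Type u} [Group H] {X : Subgroup H} {R : Subgroup X} {x : X}
    (h : ∀ y ∈ R.map X.subtype, (x : H) * y = y * x) : ∀ y ∈ R, x * y = y * x :=
  fun y hy => Subtype.ext (h y ⟨y, hy, rfl⟩)

open Cfsg.Agent.H830.B57 in
set_option maxHeartbeats 1000000 in
/-- (D3) existence of the structure of a primitive linear group -/
theorem exists_str {p : ℕ} [Fact p.Prime] {V : Type} [AddCommGroup V] [Module (ZMod p) V] [Finite V]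
    (X : Subgroup (V ≃ₗ[ZMod p] V)) (hX : PrimLin X) :
    ∃ (A C R : Subgroup (V ≃ₗ[ZMod p] V)) (t : ℕ) (E : Fin t → Subgroup (V ≃ₗ[ZMod p] V)),
      Str X A C R t E := by
  have : Finite (V ≃ₗ[ZMod p] V) := DFunLike.finite _
  obtain ⟨A, hAn, hA, hmax⟩ := exists_max (G := X)
  set C : Subgroup X := centralizer (A : Set X) with hC
  set F : Subgroup X := C ⊓ fittingSubgroup X with hF
  have hCn : C.Normal := by rw [hC]; infer_instance
  have hFn : F.Normal := by rw [hF]; infer_instance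
  have hRn : (RR A F).Normal := RR_normal
  have hAC : A ≤ C := by
    rw [hC]
    intro a ha
    rw [mem_centralizer_iff]
    intro b hb
    exact hA b hb a ha
  have hAF : A ≤ F := by
    rw [hF]
    refine le_inf hAC ?_
    refine le_fittingSubgroup hAn ?_
    let _ : CommGroup A := { (inferInstance : Group A) with mul_comm := fun a b => Subtype.ext (hA a a.2 b b.2) }
    exact CommGroup.isNilpotent
  have hRC : RR A F ≤ C := fun y hy => by
    have h1 := (mem_RR.1 hy).1
    rw [hF] at h1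
    exact h1.1
  have hRF : RR A F ≤ F := fun y hy => (mem_RR.1 hy).1
  have hFnil : Group.IsNilpotent F := by
    have h1 : F ≤ fittingSubgroup X := by rw [hF]; exact inf_le_right
    exact (le_fittingSubgroup_iff hFn).1 h1
  have : Finite (Cmp C) := inferInstance
  let e : Cmp C ≃ Fin (Nat.card (Cmp C)) := Finite.equivFin _
  let K : Fin (Nat.card (Cmp C)) → Subgroup X := fun i => (e.symm i).1
  have hKc : ∀ i, IsComponent (K i) := fun i => (e.symm i).2.1
  have hKC : ∀ i, K i ≤ C := fun i => (e.symm i).2.2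
  have hq : ∀ i, IsQuasisimple ((K i).map X.subtype) := fun i =>
    isQuasisimple_of_mulEquiv ((K i).equivMapOfInjective X.subtype X.subtype_injective) (hKc i).2
  refine ⟨A.map X.subtype, C.map X.subtype, (RR A F).map X.subtype, Nat.card (Cmp C),
    fun i => (K i).map X.subtype, ?_⟩
  constructor
  case AR =>
    refine map_mono fun a ha => mem_RR.2 ⟨hAF ha, fun y hy => ?_⟩
    have h1 : a * y * a⁻¹ * y⁻¹ = a * (y * a⁻¹ * y⁻¹) := by group
    rw [h1]
    exact A.mul_mem ha (hAn.conj_mem _ (A.inv_mem ha) y)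
  case RC => exact map_mono hRC
  case CX => exact map_subtype_le C
  case Acomm =>
    rintro _ ⟨x, hx, rfl⟩ _ ⟨y, hy, rfl⟩
    exact congrArg Subtype.val (hA x hx y hy)
  case Anorm =>
    rintro x hx _ ⟨y, hy, rfl⟩
    exact ⟨⟨x, hx⟩ * y * ⟨x, hx⟩⁻¹, hAn.conj_mem y hy _, rfl⟩
  case Ceq =>
    intro x
    constructor
    · rintro ⟨y, hy, rfl⟩
      refine ⟨y.2, ?_⟩
      rintro _ ⟨a, ha, rfl⟩
      exact congrArg Subtype.val (mem_centralizer_iff.1 hy a ha).symm
    · rintro ⟨hx, h⟩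
      refine ⟨⟨x, hx⟩, ?_, rfl⟩
      refine mem_centralizer_iff.2 fun a ha => ?_
      exact Subtype.ext (h a ⟨a, ha, rfl⟩).symm
  case Rnorm => exact norm_map hRn
  case Rcomm => exact comm_map fun x hx y hy => (mem_RR.1 hx).2 y (hRF hy)
  case Rcent =>
    apply cent_map
    refine le_of_cent hAn hA hmax inferInstance ?_ ?_
    · intro a ha b hb
      exact mem_centralizer_iff.1 hb.2 a ha.1
    · exact inf_le_left.trans (hRC.trans hC.le)
  case EC => exact fun i => map_mono (hKC i)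
  case Einj =>
    intro i j hij
    have h1 : K i = K j := map_injective X.subtype_injective hij
    exact e.symm.injective (Subtype.ext h1)
  case Eperf => exact fun i => (hq i).1.commutator_eq_top
  case Esimp => exact fun i => (hq i).2
  case Enab => exact fun i => enab (hq i)
  case Ecomm =>
    rintro i j hij _ ⟨x, hx, rfl⟩ _ ⟨y, hy, rfl⟩
    have h1 : K i ≠ K j := fun h => hij (e.symm.injective (Subtype.ext h))
    have h2 := component_le_centralizer_of_ne (hKc i) (hKc j) h1
    exact congrArg Subtype.val (mem_centralizer_iff.1 (h2 hx) y hy).symm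
  case ER =>
    intro i
    have hsol : Group.IsSolvable F := inferInstance
    have h1 := component_commutator_solvable (hKc i) (H := F) (by rw [normalizer_eq_top]; exact le_top) hsol
    have h2 := commutator_eq_bot_iff_le_centralizer.1 h1
    exact commute_map fun x hx y hy => (mem_centralizer_iff.1 (h2 hx) y (hRF hy)).symm
  case Eperm =>
    intro x hx i
    obtain ⟨h1, h2⟩ := conj_mem_cmp (hKc i) (hKC i) (⟨x, hx⟩ : X)
    refine ⟨e ⟨_, h1, h2⟩, fun y => ?_⟩
    have h3 : K (e ⟨_, h1, h2⟩) = (K i).map (MulAut.conj (⟨x, hx⟩ : X)).toMonoidHom := by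
      change (e.symm (e ⟨_, h1, h2⟩)).1 = _
      rw [e.symm_apply_apply]
    change y ∈ (K i).map X.subtype ↔ x * y * x⁻¹ ∈ (K (e ⟨_, h1, h2⟩)).map X.subtype
    rw [h3]
    constructor
    · rintro ⟨z, hz, rfl⟩
      exact ⟨_, ⟨z, hz, rfl⟩, rfl⟩
    · rintro ⟨_, ⟨z, hz, rfl⟩, hw⟩
      refine ⟨z, hz, ?_⟩
      have h4 : x * (z : V ≃ₗ[ZMod p] V) * x⁻¹ = x * y * x⁻¹ := hw
      exact mul_left_cancel (mul_right_cancel h4)
  case cent =>
    rintro _ ⟨x, hx, rfl⟩ hR hE
    refine ⟨x, ?_, rfl⟩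
    refine cent hAn hA hmax hC hF hx (comm_of_map hR) fun L l hl => ?_
    apply Subtype.ext
    refine hE (e L) l ⟨l, ?_, rfl⟩
    change l ∈ (e.symm (e L)).1
    rw [e.symm_apply_apply]
    exact hl

end Cfsg.Agent.H680.B57.ExStr
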